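import Mathlib

/-!
# Frobenius subgroups `11:5` of `E₈(3)` (S5925, box C)

`five_conj`: an element `e ≠ 1` of `SL₅(3)` with `e ^ 5 = 1` is conjugate to any other such element.
`bconj_abs`: two commuting homomorphisms `φ₁, φ₂ : SL₅(3) →* G`, the centraliser of `φ₂ Mo` is `φ₁(SL₅(3)) × ⟨φ₂ Sg⟩`;
then every pair `(x, y)` with `x ^ 11 = y ^ 5 = 1`, `y x y⁻¹ = x ^ 3` is conjugate to `(φ₂ Mo, φ₂ Fr)` or to
`(φ₂ Mo, φ₂ Fr φ₁ Fr)`.
-/

set_option autoImplicit false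

namespace Cfsg.Agent.H908.E8L

open Matrix

/-! ### Elements of order five of `SL₅(3)` -/

theorem inv81 : ∀ a b c d : ZMod 3, ¬ (a = 0 ∧ b = 0 ∧ c = 0 ∧ d = 0) → ∃ a' b' c' d' : ZMod 3,
    a' * a - b' * d + c' * (d - c) + d' * (c - b) = 1 ∧ a' * b + b' * (a - d) - c' * c + d' * (d - b) = 0 ∧
    a' * c + b' * (b - d) + c' * (a - c) - d' * b = 0 ∧ a' * d + b' * (c - d) + c' * (b - c) + d' * (a - b) = 0 := by
  decide +kernel

section lin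

variable {V : Type*} [AddCommGroup V] [Module (ZMod 3) V]

theorem indep (f : V →ₗ[ZMod 3] V) {u : V} (hu : u ≠ 0)
    (h : f (f (f (f u))) = -(u + f u + f (f u) + f (f (f u)))) {a b c d : ZMod 3}
    (H : a • u + b • f u + c • f (f u) + d • f (f (f u)) = 0) : a = 0 ∧ b = 0 ∧ c = 0 ∧ d = 0 := by
  by_contra hcon
  obtain ⟨a', b', c', d', e0, e1, e2, e3⟩ := inv81 a b c d hcon
  have H1 : (-d) • u + (a - d) • f u + (b - d) • f (f u) + (c - d) • f (f (f u)) = 0 := by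
    have := congrArg f H
    rw [map_add, map_add, map_add, map_smul, map_smul, map_smul, map_smul, h, map_zero] at this
    rw [← this]; module
  have H2 : (d - c) • u + (-c) • f u + (a - c) • f (f u) + (b - c) • f (f (f u)) = 0 := by
    have := congrArg f H1
    rw [map_add, map_add, map_add, map_smul, map_smul, map_smul, map_smul, h, map_zero] at this
    rw [← this]; module
  have H3 : (c - b) • u + (d - b) • f u + (-b) • f (f u) + (a - b) • f (f (f u)) = 0 := by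
    have := congrArg f H2
    rw [map_add, map_add, map_add, map_smul, map_smul, map_smul, map_smul, h, map_zero] at this
    rw [← this]; module
  apply hu
  have key : (a' * a - b' * d + c' * (d - c) + d' * (c - b)) • u + (a' * b + b' * (a - d) - c' * c + d' * (d - b)) • f u +
      (a' * c + b' * (b - d) + c' * (a - c) - d' * b) • f (f u) +
      (a' * d + b' * (c - d) + c' * (b - c) + d' * (a - b)) • f (f (f u)) =
      a' • (a • u + b • f u + c • f (f u) + d • f (f (f u))) +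
      b' • ((-d) • u + (a - d) • f u + (b - d) • f (f u) + (c - d) • f (f (f u))) +
      c' • ((d - c) • u + (-c) • f u + (a - c) • f (f u) + (b - c) • f (f (f u))) +
      d' • ((c - b) • u + (d - b) • f u + (-b) • f (f u) + (a - b) • f (f (f u))) := by module
  rw [e0, e1, e2, e3, H, H1, H2, H3] at key
  simpa using key

theorem five_ne : (5 : ZMod 3) = -1 := by decide

theorem indep5 (f : V →ₗ[ZMod 3] V) {v₀ u : V} (hv : v₀ ≠ 0) (hu : u ≠ 0)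
    (hv₀ : f v₀ = v₀) (h : f (f (f (f u))) = -(u + f u + f (f u) + f (f (f u)))) {a b c d e : ZMod 3}
    (H : a • (v₀ + u) + b • f (v₀ + u) + c • f (f (v₀ + u)) + d • f (f (f (v₀ + u))) +
      e • f (f (f (f (v₀ + u)))) = 0) : a = 0 ∧ b = 0 ∧ c = 0 ∧ d = 0 ∧ e = 0 := by
  simp only [map_add, hv₀] at H
  rw [h] at H
  -- the two components
  have H' : (a + b + c + d + e) • v₀ + ((a - e) • u + (b - e) • f u + (c - e) • f (f u) + (d - e) • f (f (f u))) = 0 := by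
    rw [← H]; module
  -- apply the norm
  have hN : ∀ w : V, f (f (f (f w))) = -(w + f w + f (f w) + f (f (f w))) →
      w + f w + f (f w) + f (f (f w)) + f (f (f (f w))) = 0 := by
    intro w hw; rw [hw]; abel
  set w := (a - e) • u + (b - e) • f u + (c - e) • f (f u) + (d - e) • f (f (f u)) with hw
  have hw4 : f (f (f (f w))) = -(w + f w + f (f w) + f (f (f w))) := by
    rw [hw]
    simp only [map_add, map_smul, h, map_neg]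
    module
  have hs : a + b + c + d + e = 0 := by
    by_contra hs
    have h1 : w = -((a + b + c + d + e) • v₀) := by
      rw [eq_neg_iff_add_eq_zero, add_comm]; exact H'
    have h2 : f w = w := by
      rw [h1, map_neg, map_smul, hv₀]
    have h3 := hN w hw4
    rw [h2, h2, h2, h2] at h3
    have h4 : (5 : ZMod 3) • w = 0 := by
      rw [← h3]; module
    rw [five_ne, neg_smul, one_smul, neg_eq_zero] at h4
    rw [h1, neg_eq_zero, smul_eq_zero] at h4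
    rcases h4 with h4 | h4
    · exact hs h4
    · exact hv h4
  rw [hs, zero_smul, zero_add] at H'
  obtain ⟨h1, h2, h3, h4⟩ := indep f hu h H'
  have he : e = 0 := by
    have e1 : a = e := sub_eq_zero.1 h1
    have e2 : b = e := sub_eq_zero.1 h2
    have e3 : c = e := sub_eq_zero.1 h3
    have e4 : d = e := sub_eq_zero.1 h4
    rw [e1, e2, e3, e4] at hs
    have h5 : (5 : ZMod 3) * e = 0 := by rw [← hs]; ring
    rw [five_ne, neg_mul, one_mul, neg_eq_zero] at h5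
    exact h5
  rw [he, sub_zero] at h1 h2 h3 h4
  exact ⟨h1, h2, h3, h4, he⟩

end lin

/-- the cyclic permutation matrix -/
def cyc : Matrix (Fin 5) (Fin 5) (ZMod 3) := Matrix.of fun k j => if k = j + 1 then 1 else 0

theorem pow9 : ∀ D : ZMod 3, D ^ 9 = -D → D = 0 := by decide

theorem det_sub_one {e : Matrix (Fin 5) (Fin 5) (ZMod 3)} (hd : e.det = 1) (h5 : e ^ 5 = 1) : (e - 1).det = 0 := by
  apply pow9
  have h3 : (3 : Matrix (Fin 5) (Fin 5) (ZMod 3)) = 0 := by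
    have : (3 : Matrix (Fin 5) (Fin 5) (ZMod 3)) = ((3 : ℕ) : Matrix (Fin 5) (Fin 5) (ZMod 3)) := by norm_num
    rw [this]
    have h : ((3 : ℕ) : ZMod 3) = 0 := by decide
    ext i j
    rw [Matrix.natCast_apply]
    split_ifs
    · exact h
    · rfl
  have hcube : ∀ g : Matrix (Fin 5) (Fin 5) (ZMod 3), (g - 1) ^ 3 = g ^ 3 - 1 := by
    intro g
    have : (g - 1) ^ 3 = g ^ 3 - 1 - 3 * (g ^ 2 - g) := by noncomm_ring
    rw [this, h3, zero_mul, sub_zero]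
  have h9 : (e - 1) ^ 9 = -(e ^ 4 * (e - 1)) := by
    have e1 : (e - 1) ^ 9 = ((e - 1) ^ 3) ^ 3 := by rw [← pow_mul]
    rw [e1, hcube, hcube, ← pow_mul, show 3 * 3 = 5 + 4 by norm_num, pow_add, h5, one_mul, mul_sub, mul_one, ← pow_succ,
      h5, neg_sub]
  have h := congrArg Matrix.det h9
  rw [Matrix.det_pow, Matrix.det_neg, Matrix.det_mul, Matrix.det_pow, hd, one_pow, one_mul, Fintype.card_fin] at h
  rw [h]; ring

theorem exists_cyc {e : Matrix (Fin 5) (Fin 5) (ZMod 3)} (hd : e.det = 1) (h5 : e ^ 5 = 1) (hne : e ≠ 1) :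
    ∃ P : Matrix (Fin 5) (Fin 5) (ZMod 3), P.det ≠ 0 ∧ e * P = P * cyc := by
  obtain ⟨v₀, hv, hv₀⟩ := (Matrix.exists_mulVec_eq_zero_iff (M := e - 1)).2 (det_sub_one hd h5)
  rw [Matrix.sub_mulVec, Matrix.one_mulVec, sub_eq_zero] at hv₀
  obtain ⟨w, hw⟩ : ∃ w : Fin 5 → ZMod 3, e *ᵥ w ≠ w := by
    by_contra hcon
    push Not at hcon
    apply hne
    apply Matrix.ext_of_mulVec_single
    intro i
    rw [hcon, Matrix.one_mulVec]
  set f : (Fin 5 → ZMod 3) →ₗ[ZMod 3] (Fin 5 → ZMod 3) := e.mulVecLin with hf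
  have hfa : ∀ z, f z = e *ᵥ z := fun z => rfl
  have hf5 : ∀ z, f (f (f (f (f z)))) = z := by
    intro z
    have : f (f (f (f (f z)))) = (e ^ 5) *ᵥ z := by
      simp only [hfa, Matrix.mulVec_mulVec, pow_succ, pow_zero, one_mul, Matrix.mul_assoc]
    rw [this, h5, Matrix.one_mulVec]
  set u := f w - w with hu
  have hu0 : u ≠ 0 := by rw [hu, sub_ne_zero]; exact hw
  have hu4 : f (f (f (f u))) = -(u + f u + f (f u) + f (f (f u))) := by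
    rw [hu]
    simp only [map_sub, hf5]
    abel
  set v := v₀ + u with hvd
  set c : Fin 5 → (Fin 5 → ZMod 3) := ![v, f v, f (f v), f (f (f v)), f (f (f (f v)))] with hc
  refine ⟨Matrix.of fun i j => c j i, ?_, ?_⟩
  · intro hdet
    obtain ⟨k, hk, hk0⟩ := (Matrix.exists_mulVec_eq_zero_iff).2 hdet
    apply hk
    have H : k 0 • v + k 1 • f v + k 2 • f (f v) + k 3 • f (f (f v)) + k 4 • f (f (f (f v))) = 0 := by
      rw [← hk0]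
      ext i
      simp only [Matrix.mulVec, dotProduct, Matrix.of_apply, Fin.sum_univ_five, Pi.add_apply, Pi.smul_apply, smul_eq_mul, hc]
      simp only [Matrix.cons_val_zero, Matrix.cons_val_one, Matrix.cons_val]
      ring
    obtain ⟨h0, h1, h2, h3, h4⟩ := indep5 f hv hu0 hv₀ hu4 H
    ext i
    fin_cases i
    · exact h0
    · exact h1
    · exact h2
    · exact h3
    · exact h4
  · have hcol : ∀ j, e *ᵥ (c j) = c (j + 1) := by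
      intro j
      fin_cases j
      · rfl
      · rfl
      · rfl
      · rfl
      · exact hf5 v
    ext i j
    have h1 : (e * Matrix.of fun i j => c j i) i j = (e *ᵥ (c j)) i := rfl
    rw [h1, hcol, Matrix.mul_apply]
    simp only [cyc, Matrix.of_apply, mul_ite, mul_one, mul_zero, Finset.sum_ite_eq', Finset.mem_univ, if_true]

/-- Two elements of order five of `SL₅(3)` are conjugate in `SL₅(3)`. -/
theorem five_conj {e e' : Matrix.SpecialLinearGroup (Fin 5) (ZMod 3)} (h5 : e ^ 5 = 1) (hne : e ≠ 1) (h5' : e' ^ 5 = 1)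
    (hne' : e' ≠ 1) : ∃ d : Matrix.SpecialLinearGroup (Fin 5) (ZMod 3), d * e * d⁻¹ = e' := by
  have cast5 : ∀ g : Matrix.SpecialLinearGroup (Fin 5) (ZMod 3), g ^ 5 = 1 → (g : Matrix (Fin 5) (Fin 5) (ZMod 3)) ^ 5 = 1 := by
    intro g hg
    have h := Matrix.SpecialLinearGroup.coe_pow g 5
    rw [hg, Matrix.SpecialLinearGroup.coe_one] at h
    exact h.symm
  have castne : ∀ g : Matrix.SpecialLinearGroup (Fin 5) (ZMod 3), g ≠ 1 → (g : Matrix (Fin 5) (Fin 5) (ZMod 3)) ≠ 1 := by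
    intro g hg h
    exact hg (Subtype.ext h)
  obtain ⟨P, hP, hP1⟩ := exists_cyc e.2 (cast5 e h5) (castne e hne)
  obtain ⟨Q, hQ, hQ1⟩ := exists_cyc e'.2 (cast5 e' h5') (castne e' hne')
  have hPu : IsUnit P.det := isUnit_iff_ne_zero.2 hP
  have hPi : P * P⁻¹ = 1 := Matrix.mul_nonsing_inv P hPu
  have hiP : P⁻¹ * P = 1 := Matrix.nonsing_inv_mul P hPu
  set D := Q * P⁻¹ with hD
  have hDe : D * (e : Matrix (Fin 5) (Fin 5) (ZMod 3)) = (e' : Matrix (Fin 5) (Fin 5) (ZMod 3)) * D := by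
    have h1 : P⁻¹ * (e : Matrix (Fin 5) (Fin 5) (ZMod 3)) = cyc * P⁻¹ := by
      have h2 : P⁻¹ * ((e : Matrix (Fin 5) (Fin 5) (ZMod 3)) * P) * P⁻¹ = P⁻¹ * (P * cyc) * P⁻¹ := by rw [hP1]
      rw [← Matrix.mul_assoc, ← Matrix.mul_assoc, hiP, Matrix.one_mul, Matrix.mul_assoc _ P, hPi, Matrix.mul_one] at h2
      exact h2
    rw [hD, Matrix.mul_assoc, h1, ← Matrix.mul_assoc, ← hQ1, Matrix.mul_assoc]
  have hDd : D.det ≠ 0 := by
    rw [hD, Matrix.det_mul]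
    refine mul_ne_zero hQ ?_
    intro h0
    have := congrArg Matrix.det hPi
    rw [Matrix.det_mul, h0, mul_zero, Matrix.det_one] at this
    exact zero_ne_one this
  obtain ⟨s, hs⟩ : ∃ s : ZMod 3, (s • D).det = 1 := by
    have : ∀ x : ZMod 3, x ≠ 0 → ∃ s : ZMod 3, s ^ 5 * x = 1 := by decide
    obtain ⟨s, hs⟩ := this _ hDd
    refine ⟨s, ?_⟩
    rw [Matrix.det_smul, Fintype.card_fin]
    exact hs
  obtain ⟨X, hX⟩ : ∃ X : Matrix.SpecialLinearGroup (Fin 5) (ZMod 3), (X : Matrix (Fin 5) (Fin 5) (ZMod 3)) = s • D :=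
    ⟨⟨s • D, hs⟩, rfl⟩
  have hXe : X * e = e' * X := by
    apply Subtype.ext
    show (X : Matrix (Fin 5) (Fin 5) (ZMod 3)) * (e : Matrix (Fin 5) (Fin 5) (ZMod 3)) =
      (e' : Matrix (Fin 5) (Fin 5) (ZMod 3)) * (X : Matrix (Fin 5) (Fin 5) (ZMod 3))
    rw [hX, Matrix.smul_mul, hDe, Matrix.mul_smul]
  exact ⟨X, by rw [hXe, mul_assoc, mul_inv_cancel, mul_one]⟩

/-! ### The abstract statement -/

section group

variable {G L : Type*} [Group G] [Group L]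

theorem pow_conj {Fr Sg : L} (h2 : Fr * Sg * Fr⁻¹ = Sg ^ 3) (n : ℕ) : Fr * Sg ^ n = Sg ^ (3 * n) * Fr := by
  rw [pow_mul, ← h2, conj_pow]
  group

theorem conj_sg {Fr Sg : L} (h2 : Fr * Sg * Fr⁻¹ = Sg ^ 3) (h4 : Sg ^ 121 = 1) (i : ℕ) :
    Sg ^ (180 * i) * Fr * (Sg ^ (180 * i))⁻¹ = Fr * Sg ^ i := by
  rw [mul_inv_eq_iff_eq_mul]
  have h : Sg ^ (180 * i) * Fr = Fr * Sg ^ (60 * i) := by
    rw [pow_conj h2, show 3 * (60 * i) = 180 * i by ring]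
  rw [h, mul_assoc, ← pow_add]
  congr 1
  have : i + 180 * i = 60 * i + 121 * i := by ring
  rw [this, pow_add, pow_mul Sg 121 i, h4, one_pow, mul_one]

/-- **BCONJ, abstract form.** -/
theorem bconj_abs (φ₁ φ₂ : L →* G) (hc : ∀ a b, φ₁ a * φ₂ b = φ₂ b * φ₁ a) (hinj : Function.Injective φ₁)
    {Mo Fr Sg : L} (h1 : Fr * Mo * Fr⁻¹ = Mo ^ 3) (h2 : Fr * Sg * Fr⁻¹ = Sg ^ 3) (h3 : Sg * Mo = Mo * Sg)
    (h4 : Sg ^ 121 = 1) (h5 : Fr ^ 5 = 1)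
    (hB : ∀ g : G, g * φ₂ Mo = φ₂ Mo * g → ∃ e : L, ∃ i : ℕ, g = φ₁ e * φ₂ Sg ^ i)
    (hB2 : ∀ x : G, x ^ 11 = 1 → x ≠ 1 → ∃ g : G, g * x * g⁻¹ = φ₂ Mo)
    (hE : ∀ e : L, e ^ 5 = 1 → e = 1 ∨ ∃ d : L, d * e * d⁻¹ = Fr)
    (x y : G) (hx : x ^ 11 = 1) (hx1 : x ≠ 1) (hy : y ^ 5 = 1) (hxy : y * x * y⁻¹ = x ^ 3) :
    ∃ g : G, g * x * g⁻¹ = φ₂ Mo ∧ (g * y * g⁻¹ = φ₂ Fr ∨ g * y * g⁻¹ = φ₂ Fr * φ₁ Fr) := by
  obtain ⟨g₀, hg₀⟩ := hB2 x hx hx1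
  set y' := g₀ * y * g₀⁻¹ with hy'
  have hy'5 : y' ^ 5 = 1 := by
    rw [hy', conj_pow, hy, mul_one, mul_inv_cancel]
  have hy'x : y' * φ₂ Mo * y'⁻¹ = φ₂ Mo ^ 3 := by
    rw [← hg₀, conj_pow, ← hxy, hy']; group
  have hF : φ₂ Fr * φ₂ Mo * (φ₂ Fr)⁻¹ = φ₂ Mo ^ 3 := by
    rw [← map_mul, ← map_inv, ← map_mul, h1, map_pow]
  obtain ⟨e, i, hei⟩ := hB ((φ₂ Fr)⁻¹ * y') (by
    have e1 : y' * φ₂ Mo = φ₂ Mo ^ 3 * y' := by rw [← hy'x]; group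
    have e2 : φ₂ Fr * φ₂ Mo = φ₂ Mo ^ 3 * φ₂ Fr := by rw [← hF]; group
    have e3 : (φ₂ Fr)⁻¹ * φ₂ Mo ^ 3 = φ₂ Mo * (φ₂ Fr)⁻¹ := by
      rw [inv_mul_eq_iff_eq_mul, ← mul_assoc, e2, mul_assoc, mul_inv_cancel, mul_one]
    rw [mul_assoc, e1, ← mul_assoc, e3, mul_assoc])
  have hy'' : y' = φ₁ e * φ₂ (Fr * Sg ^ i) := by
    have : y' = φ₂ Fr * (φ₁ e * φ₂ Sg ^ i) := by rw [← hei]; group
    rw [this, ← mul_assoc, ← hc, mul_assoc, map_mul, map_pow]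
  have hconj := conj_sg h2 h4 i
  have h55 : (Fr * Sg ^ i) ^ 5 = 1 := by
    rw [← hconj, conj_pow, h5, mul_one, mul_inv_cancel]
  have he5 : e ^ 5 = 1 := by
    apply hinj
    have hcom : Commute (φ₁ e) (φ₂ (Fr * Sg ^ i)) := hc _ _
    rw [hy'', hcom.mul_pow, ← map_pow, ← map_pow, h55, map_one, mul_one] at hy'5
    rw [hy'5, map_one]
  set s := φ₂ (Sg ^ (180 * i)) with hs
  have hsM : s * φ₂ Mo * s⁻¹ = φ₂ Mo := by
    have : Commute Sg Mo := h3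
    have h := (this.pow_left (180 * i)).eq
    rw [mul_inv_eq_iff_eq_mul, hs, ← map_mul, h, map_mul]
  have hsM' : s⁻¹ * φ₂ Mo * s = φ₂ Mo := by
    conv_lhs => rw [← hsM]
    group
  have hsy : s⁻¹ * y' * s = φ₁ e * φ₂ Fr := by
    have h6 : φ₂ (Fr * Sg ^ i) = s * φ₂ Fr * s⁻¹ := by
      rw [← hconj, hs, map_mul, map_mul, map_inv]
    have h7 : s⁻¹ * φ₁ e = φ₁ e * s⁻¹ := by
      rw [inv_mul_eq_iff_eq_mul, ← mul_assoc, hs, ← hc, mul_assoc, mul_inv_cancel, mul_one]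
    rw [hy'', h6]
    calc s⁻¹ * (φ₁ e * (s * φ₂ Fr * s⁻¹)) * s = s⁻¹ * φ₁ e * s * φ₂ Fr := by group
      _ = φ₁ e * φ₂ Fr := by rw [h7]; group
  rcases hE e he5 with he | ⟨d, hd⟩
  · refine ⟨s⁻¹ * g₀, ?_, Or.inl ?_⟩
    · have : s⁻¹ * g₀ * x * (s⁻¹ * g₀)⁻¹ = s⁻¹ * (g₀ * x * g₀⁻¹) * s := by group
      rw [this, hg₀, hsM']
    · have : s⁻¹ * g₀ * y * (s⁻¹ * g₀)⁻¹ = s⁻¹ * y' * s := by rw [hy']; group
      rw [this, hsy, he, map_one, one_mul]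
  · refine ⟨φ₁ d * (s⁻¹ * g₀), ?_, Or.inr ?_⟩
    · have : φ₁ d * (s⁻¹ * g₀) * x * (φ₁ d * (s⁻¹ * g₀))⁻¹ = φ₁ d * (s⁻¹ * (g₀ * x * g₀⁻¹) * s) * (φ₁ d)⁻¹ := by group
      rw [this, hg₀, hsM', hc, mul_assoc, mul_inv_cancel, mul_one]
    · have : φ₁ d * (s⁻¹ * g₀) * y * (φ₁ d * (s⁻¹ * g₀))⁻¹ = φ₁ d * (s⁻¹ * y' * s) * (φ₁ d)⁻¹ := by rw [hy']; group
      rw [this, hsy, mul_assoc, mul_assoc (φ₁ e), ← map_inv, ← hc, ← mul_assoc, ← mul_assoc, ← map_mul, ← map_mul, hd, hc]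

end group

/-! ### The matrices of `tools/plans/S5925_code/frame.txt` -/

/-- the element of order 11 -/
def MoM : Matrix (Fin 5) (Fin 5) (ZMod 3) :=
  !![1, 0, 1, 1, 2; 1, 1, 2, 0, 2; 2, 1, 1, 2, 0; 2, 2, 1, 1, 2; 0, 2, 2, 1, 1]

/-- the element of order 5 -/
def FrM : Matrix (Fin 5) (Fin 5) (ZMod 3) :=
  !![1, 0, 0, 2, 0; 0, 0, 2, 1, 0; 0, 0, 1, 0, 1; 0, 1, 0, 0, 1; 0, 0, 0, 2, 1]

/-- the element of order 121 with `Sg ^ 11 = Mo` -/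
def SgM : Matrix (Fin 5) (Fin 5) (ZMod 3) :=
  !![0, 0, 0, 2, 0; 0, 0, 0, 1, 2; 1, 0, 0, 0, 1; 0, 1, 0, 0, 0; 0, 0, 1, 0, 0]

theorem MoM_det : MoM.det = 1 := by
  decide +kernel

theorem FrM_det : FrM.det = 1 := by
  decide +kernel

theorem SgM_det : SgM.det = 1 := by
  decide +kernel

theorem MoM_two : MoM * MoM = !![2, 1, 1, 0, 0; 0, 1, 0, 1, 0; 0, 0, 1, 0, 1; 2, 0, 0, 1, 0; 2, 2, 0, 0, 1] := by decide +kernel
theorem MoM_four : (!![2, 1, 1, 0, 0; 0, 1, 0, 1, 0; 0, 0, 1, 0, 1; 2, 0, 0, 1, 0; 2, 2, 0, 0, 1] : Matrix (Fin 5) (Fin 5) (ZMod 3)) * !![2, 1, 1, 0, 0; 0, 1, 0, 1, 0; 0, 0, 1, 0, 1; 2, 0, 0, 1, 0; 2, 2, 0, 0, 1] = !![1, 0, 0, 1, 1; 2, 1, 0, 2, 0; 2, 2, 1, 0, 2; 0, 2, 2, 1, 0; 0, 0, 2, 2, 1] := by decide +kernel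
theorem MoM_eight : (!![1, 0, 0, 1, 1; 2, 1, 0, 2, 0; 2, 2, 1, 0, 2; 0, 2, 2, 1, 0; 0, 0, 2, 2, 1] : Matrix (Fin 5) (Fin 5) (ZMod 3)) * !![1, 0, 0, 1, 1; 2, 1, 0, 2, 0; 2, 2, 1, 0, 2; 0, 2, 2, 1, 0; 0, 0, 2, 2, 1] = !![1, 2, 1, 1, 2; 1, 2, 1, 0, 2; 2, 1, 2, 1, 0; 2, 2, 1, 2, 1; 1, 2, 2, 1, 2] := by decide +kernel
theorem SgM_two : SgM * SgM = !![0, 2, 0, 0, 0; 0, 1, 2, 0, 0; 0, 0, 1, 2, 0; 0, 0, 0, 1, 2; 1, 0, 0, 0, 1] := by decide +kernel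
theorem SgM_four : (!![0, 2, 0, 0, 0; 0, 1, 2, 0, 0; 0, 0, 1, 2, 0; 0, 0, 0, 1, 2; 1, 0, 0, 0, 1] : Matrix (Fin 5) (Fin 5) (ZMod 3)) * !![0, 2, 0, 0, 0; 0, 1, 2, 0, 0; 0, 0, 1, 2, 0; 0, 0, 0, 1, 2; 1, 0, 0, 0, 1] = !![0, 2, 1, 0, 0; 0, 1, 1, 1, 0; 0, 0, 1, 1, 1; 2, 0, 0, 1, 1; 1, 2, 0, 0, 1] := by decide +kernel
theorem SgM_eight : (!![0, 2, 1, 0, 0; 0, 1, 1, 1, 0; 0, 0, 1, 1, 1; 2, 0, 0, 1, 1; 1, 2, 0, 0, 1] : Matrix (Fin 5) (Fin 5) (ZMod 3)) * !![0, 2, 1, 0, 0; 0, 1, 1, 1, 0; 0, 0, 1, 1, 1; 2, 0, 0, 1, 1; 1, 2, 0, 0, 1] = !![0, 2, 0, 0, 1; 2, 1, 2, 0, 2; 0, 2, 1, 2, 0; 0, 0, 2, 1, 2; 1, 0, 0, 2, 1] := by decide +kernel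
theorem FrM_two : FrM * FrM = !![1, 2, 0, 2, 2; 0, 1, 2, 0, 0; 0, 0, 1, 2, 2; 0, 0, 2, 0, 1; 0, 2, 0, 2, 0] := by decide +kernel
theorem FrM_four : (!![1, 2, 0, 2, 2; 0, 1, 2, 0, 0; 0, 0, 1, 2, 2; 0, 0, 2, 0, 1; 0, 2, 0, 2, 0] : Matrix (Fin 5) (Fin 5) (ZMod 3)) * !![1, 2, 0, 2, 2; 0, 1, 2, 0, 0; 0, 0, 1, 2, 2; 0, 0, 2, 0, 1; 0, 2, 0, 2, 0] = !![1, 2, 2, 0, 1; 0, 1, 1, 1, 1; 0, 1, 2, 0, 1; 0, 2, 2, 0, 1; 0, 2, 2, 0, 2] := by decide +kernel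

theorem MoM_pow : MoM ^ 11 = 1 := by
  have : MoM ^ 11 = ((MoM * MoM) * (MoM * MoM)) * ((MoM * MoM) * (MoM * MoM)) * ((MoM * MoM) * MoM) := by noncomm_ring
  rw [this, MoM_two, MoM_four, MoM_eight]
  decide +kernel

theorem SgM_pow : SgM ^ 11 = MoM := by
  have : SgM ^ 11 = ((SgM * SgM) * (SgM * SgM)) * ((SgM * SgM) * (SgM * SgM)) * ((SgM * SgM) * SgM) := by noncomm_ring
  rw [this, SgM_two, SgM_four, SgM_eight]
  decide +kernel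

theorem FrM_pow : FrM ^ 5 = 1 := by
  have : FrM ^ 5 = ((FrM * FrM) * (FrM * FrM)) * FrM := by noncomm_ring
  rw [this, FrM_two, FrM_four]
  decide +kernel

theorem FrM_SgM : FrM * SgM = SgM ^ 3 * FrM := by
  have : SgM ^ 3 * FrM = (SgM * SgM) * (SgM * FrM) := by noncomm_ring
  rw [this, SgM_two]
  decide +kernel

/-- the element of order 11 of `SL₅(3)` -/
def Mo : Matrix.SpecialLinearGroup (Fin 5) (ZMod 3) := ⟨MoM, MoM_det⟩

/-- the element of order 5 of `SL₅(3)` -/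
def Fr : Matrix.SpecialLinearGroup (Fin 5) (ZMod 3) := ⟨FrM, FrM_det⟩

/-- the Singer element of order 121 of `SL₅(3)` -/
def Sg : Matrix.SpecialLinearGroup (Fin 5) (ZMod 3) := ⟨SgM, SgM_det⟩

theorem sg_pow11 : Sg ^ 11 = Mo := by
  apply Subtype.ext
  rw [Matrix.SpecialLinearGroup.coe_pow]
  exact SgM_pow

theorem mo_pow11 : Mo ^ 11 = 1 := by
  apply Subtype.ext
  rw [Matrix.SpecialLinearGroup.coe_pow]
  exact MoM_pow

theorem sg_pow121 : Sg ^ 121 = 1 := by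
  rw [show 121 = 11 * 11 by norm_num, pow_mul, sg_pow11, mo_pow11]

theorem fr_pow5 : Fr ^ 5 = 1 := by
  apply Subtype.ext
  rw [Matrix.SpecialLinearGroup.coe_pow]
  exact FrM_pow

theorem fr_sg : Fr * Sg = Sg ^ 3 * Fr := by
  apply Subtype.ext
  rw [Matrix.SpecialLinearGroup.coe_mul, Matrix.SpecialLinearGroup.coe_mul, Matrix.SpecialLinearGroup.coe_pow]
  exact FrM_SgM

theorem fr_sg' : Fr * Sg * Fr⁻¹ = Sg ^ 3 := by
  rw [fr_sg, mul_assoc, mul_inv_cancel, mul_one]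

theorem sg_mo : Sg * Mo = Mo * Sg := by
  rw [← sg_pow11, ← pow_succ, ← pow_succ']

theorem fr_mo' : Fr * Mo * Fr⁻¹ = Mo ^ 3 := by
  rw [← sg_pow11, ← conj_pow, fr_sg', ← pow_mul, ← pow_mul, mul_comm]

theorem fr_ne : Fr ≠ 1 := by
  intro h
  have h1 := congrArg (fun g : Matrix.SpecialLinearGroup (Fin 5) (ZMod 3) => (g : Matrix (Fin 5) (Fin 5) (ZMod 3)) 0 3) h
  revert h1
  show ¬ FrM 0 3 = (1 : Matrix (Fin 5) (Fin 5) (ZMod 3)) 0 3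
  decide

theorem mo_ne : Mo ≠ 1 := by
  intro h
  have h1 := congrArg (fun g : Matrix.SpecialLinearGroup (Fin 5) (ZMod 3) => (g : Matrix (Fin 5) (Fin 5) (ZMod 3)) 0 2) h
  revert h1
  show ¬ MoM 0 2 = (1 : Matrix (Fin 5) (Fin 5) (ZMod 3)) 0 2
  decide

theorem five_or (e : Matrix.SpecialLinearGroup (Fin 5) (ZMod 3)) (he : e ^ 5 = 1) :
    e = 1 ∨ ∃ d : Matrix.SpecialLinearGroup (Fin 5) (ZMod 3), d * e * d⁻¹ = Fr := by
  by_cases h : e = 1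
  · exact Or.inl h
  · exact Or.inr (five_conj he h fr_pow5 fr_ne)

/-- **BCONJ.** -/
theorem bconj {G : Type*} [Group G] (φ₁ φ₂ : Matrix.SpecialLinearGroup (Fin 5) (ZMod 3) →* G)
    (hc : ∀ a b, φ₁ a * φ₂ b = φ₂ b * φ₁ a) (hinj : Function.Injective φ₁)
    (hB : ∀ g : G, g * φ₂ Mo = φ₂ Mo * g →
      ∃ e : Matrix.SpecialLinearGroup (Fin 5) (ZMod 3), ∃ i : ℕ, g = φ₁ e * φ₂ Sg ^ i)
    (hB2 : ∀ x : G, x ^ 11 = 1 → x ≠ 1 → ∃ g : G, g * x * g⁻¹ = φ₂ Mo)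
    (x y : G) (hx : x ^ 11 = 1) (hx1 : x ≠ 1) (hy : y ^ 5 = 1) (hxy : y * x * y⁻¹ = x ^ 3) :
    ∃ g : G, g * x * g⁻¹ = φ₂ Mo ∧ (g * y * g⁻¹ = φ₂ Fr ∨ g * y * g⁻¹ = φ₂ Fr * φ₁ Fr) :=
  bconj_abs φ₁ φ₂ hc hinj fr_mo' fr_sg' sg_mo sg_pow121 fr_pow5 hB hB2 five_or x y hx hx1 hy hxy

end Cfsg.Agent.H908.E8L
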