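import Cfsg.Agent.H138.E8L.Zed
import Cfsg.Agent.H879.E83.Kap

/-!
# S5925, box U1: the elements `k(λ)` of helper879 are rational (helper908)

`kel_X`, `kel_YY` : `k(λ)` commutes with `φ₂ X`, `YY`; `NN_kel` : `k(λ)` is fixed by the twisted Frobenius map;
`exists_zed_kap` : helper138's `z₀`, and `z₀ k(λ) z₀⁻¹` is the image of an element of `E₈(3)` which commutes with `x₀`, `y₀`.
-/

set_option autoImplicit false
set_option linter.style.longLine false

namespace Cfsg.Agent.H908.E8L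

open Matrix Cfsg Cfsg.Lie Cfsg.Agent.ChevalleyStructure Cfsg.Agent.ChevalleyStructure.Elts
open Cfsg.Agent.H992.E8X Cfsg.Agent.H238.E8 Cfsg.Agent.H576.E8L Cfsg.Agent.H183.E8F Cfsg.Agent.H879.E83
open Cfsg.Agent.GpExc.Field (emb)
open Cfsg.Agent.BpExc.FamUntw (phi)
open Cfsg.Agent.H138.E8L.Zed (exists_B X5M phi_emb3)

section
variable {k : Type} [Field k]

theorem dg_comm {d d' : Fin 5 → kˣ} (h : ∏ i, d i = 1) (h' : ∏ i, d' i = 1) : dg d h * dg d' h' = dg d' h' * dg d h := by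
  apply Subtype.ext
  show Matrix.diagonal (fun i => (d i : k)) * Matrix.diagonal (fun i => (d' i : k)) =
    Matrix.diagonal (fun i => (d' i : k)) * Matrix.diagonal (fun i => (d i : k))
  rw [Matrix.diagonal_mul_diagonal, Matrix.diagonal_mul_diagonal]
  congr 1
  funext i
  exact mul_comm _ _

theorem kel_X (l : kˣ) (h : l ^ 80 = 1) (X : SpecialLinearGroup (Fin 5) k) : kel l h * ph2 k X = ph2 k X * kel l h :=
  (ph_comm k _ X).eq

theorem kel_YY (l : kˣ) (h : l ^ 80 = 1) (w : kˣ) (hw : w ^ 5 = 1) : kel l h * YY w hw = YY w hw * kel l h := by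
  have h1 : dg (kd l) (kd_prod h) * Yd w hw = Yd w hw * dg (kd l) (kd_prod h) := dg_comm _ _
  have h2 := (ph_comm k (dg (kd l) (kd_prod h)) (Yd w hw)).eq
  have h3 : ph1 k (dg (kd l) (kd_prod h)) * ph1 k (Yd w hw) = ph1 k (Yd w hw) * ph1 k (dg (kd l) (kd_prod h)) := by
    rw [← map_mul, h1, map_mul]
  unfold kel YY
  rw [← mul_assoc, h3, mul_assoc, h2, mul_assoc]

theorem kd_cube {l : kˣ} (h : l ^ 80 = 1) : (kd l 0) ^ 3 = kd l 0 ∧ (kd l 1) ^ 3 = kd l 3 ∧ (kd l 2) ^ 3 = kd l 1 ∧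
    (kd l 3) ^ 3 = kd l 4 ∧ (kd l 4) ^ 3 = kd l 2 := by
  refine ⟨?_, ?_, ?_, ?_, ?_⟩
  · show (l ^ 40) ^ 3 = l ^ 40
    rw [← pow_mul, show 40 * 3 = 80 + 40 by norm_num, pow_add, h, one_mul]
  · show (l ^ 9) ^ 3 = l ^ 27
    rw [← pow_mul]
  · show (l ^ 3) ^ 3 = l ^ 9
    rw [← pow_mul]
  · show (l ^ 27) ^ 3 = l
    rw [← pow_mul, show 27 * 3 = 80 + 1 by norm_num, pow_add, h, one_mul, pow_one]
  · show l ^ 3 = l ^ 3
    rfl

variable [CharP k 3]

theorem PP_dg {l : kˣ} (h : l ^ 80 = 1) :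
    PP k * SpecialLinearGroup.map (iterateFrobenius k 3 1) (dg (kd l) (kd_prod h)) = dg (kd l) (kd_prod h) * PP k := by
  obtain ⟨c0, c1, c2, c3, c4⟩ := kd_cube h
  have e : ∀ i j, (kd l i) ^ 3 = kd l j → ((kd l i : kˣ) : k) ^ 3 = ((kd l j : kˣ) : k) := by
    intro i j hij
    rw [← Units.val_pow_eq_pow_val, hij]
  have d0 := e _ _ c0
  have d1 := e _ _ c1
  have d2 := e _ _ c2
  have d3 := e _ _ c3
  have d4 := e _ _ c4
  apply Subtype.ext
  show ((PP k : SpecialLinearGroup (Fin 5) k) : Matrix (Fin 5) (Fin 5) k) *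
      (Matrix.diagonal (fun i => ((kd l i : kˣ) : k))).map (iterateFrobenius k 3 1) =
    Matrix.diagonal (fun i => ((kd l i : kˣ) : k)) * ((PP k : SpecialLinearGroup (Fin 5) k) : Matrix (Fin 5) (Fin 5) k)
  rw [Matrix.diagonal_map (map_zero _), coe_PP]
  ext i j
  rw [Matrix.mul_diagonal, Matrix.diagonal_mul, iterateFrobenius_def, pow_one]
  fin_cases i <;> fin_cases j <;> simp [d0, d1, d2, d3, d4]

theorem NN_kel [IsAlgClosed k] {l : kˣ} (h : l ^ 80 = 1) : NN k * phi chevE8 k 3 1 (kel l h) = kel l h * NN k := by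
  have h1 := (ph_comm k (SpecialLinearGroup.map (iterateFrobenius k 3 1) (dg (kd l) (kd_prod h))) (PP k)).eq
  unfold kel NN
  rw [phi_ph1, mul_assoc, ← h1, ← mul_assoc, ← map_mul, PP_dg h, map_mul, mul_assoc]

omit [CharP k 3] in
theorem cube_mem [CharP k 3] (f : ZMod 3 →+* k) {x : k} (hx : x ^ 3 = x) : ∃ a : ZMod 3, f a = x := by
  have h : x * ((x - 1) * (x + 1)) = 0 := by linear_combination hx
  rcases mul_eq_zero.1 h with h | h
  · exact ⟨0, by rw [map_zero, h]⟩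
  · rcases mul_eq_zero.1 h with h | h
    · exact ⟨1, by rw [map_one, sub_eq_zero.1 h]⟩
    · exact ⟨-1, by rw [map_neg, map_one]; exact (eq_neg_of_add_eq_zero_left h).symm⟩

theorem exists_rat (f : ZMod 3 →+* k) {D : SpecialLinearGroup (Fin 5) k}
    (hD : SpecialLinearGroup.map (iterateFrobenius k 3 1) D = D) :
    ∃ D0 : SpecialLinearGroup (Fin 5) (ZMod 3), SpecialLinearGroup.map f D0 = D := by
  have h1 : ∀ i j, ∃ a : ZMod 3, f a = (D : Matrix (Fin 5) (Fin 5) k) i j := by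
    intro i j
    apply cube_mem f
    have h2 := congrArg (fun M : SpecialLinearGroup (Fin 5) k => (M : Matrix (Fin 5) (Fin 5) k) i j) hD
    have h3 : (iterateFrobenius k 3 1) ((D : Matrix (Fin 5) (Fin 5) k) i j) = (D : Matrix (Fin 5) (Fin 5) k) i j := h2
    rwa [iterateFrobenius_def, pow_one] at h3
  choose a ha using h1
  have hm : (Matrix.of a).map f = (D : Matrix (Fin 5) (Fin 5) k) := by
    ext i j
    exact ha i j
  have hd : (Matrix.of a).det = 1 := by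
    apply f.injective
    rw [map_one]
    have h4 := RingHom.map_det f (Matrix.of a)
    rw [RingHom.mapMatrix_apply] at h4
    rw [h4]
    exact (congrArg Matrix.det hm).trans D.2
  exact ⟨⟨Matrix.of a, hd⟩, Subtype.ext hm⟩

omit [CharP k 3] in
theorem map_inj (f : ZMod 3 →+* k) {A B : SpecialLinearGroup (Fin 5) (ZMod 3)}
    (h : SpecialLinearGroup.map f A = SpecialLinearGroup.map f B) : A = B := by
  apply Subtype.ext
  ext i j
  apply f.injective
  exact congrArg (fun M : SpecialLinearGroup (Fin 5) k => (M : Matrix (Fin 5) (Fin 5) k) i j) h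

/-- **S5925: the element `z₀` and the rational elements `z₀ k(λ) z₀⁻¹`.** -/
theorem exists_zed_kap [IsAlgClosed k] (f : ZMod 3 →+* k) {g : k} (hg : g ^ 4 = 1 - g) :
    ∃ (z : ↥(chevE8.group k)) (X : SpecialLinearGroup (Fin 5) k), (X : Matrix (Fin 5) (Fin 5) k) = X5M g ∧
      z⁻¹ * phi chevE8 k 3 1 z = NN k ∧
      z⁻¹ * emb hE8 f (ph2 (ZMod 3) Mo) * z = ph2 k X ∧
      z⁻¹ * emb hE8 f (ph1 (ZMod 3) Fr * ph2 (ZMod 3) Fr) * z = YY (wU g hg) (wU_pow hg) ∧
      z⁻¹ * emb hE8 f (ph2 (ZMod 3) Fr * ph1 (ZMod 3) Fr) * z = YY (wU g hg) (wU_pow hg) ∧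
      (∀ t : ↥(chevE8.group (ZMod 3)), NN k * phi chevE8 k 3 1 (z⁻¹ * emb hE8 f t * z) = (z⁻¹ * emb hE8 f t * z) * NN k) ∧
      ∀ (l : kˣ) (h : l ^ 80 = 1), ∃ k0 : ↥(chevE8.group (ZMod 3)), emb hE8 f k0 = z * kel l h * z⁻¹ ∧
        k0 * ph2 (ZMod 3) Mo = ph2 (ZMod 3) Mo * k0 ∧
        k0 * (ph2 (ZMod 3) Fr * ph1 (ZMod 3) Fr) = (ph2 (ZMod 3) Fr * ph1 (ZMod 3) Fr) * k0 := by
  obtain ⟨B, X, hX, h1, h2, h3⟩ := exists_B f hg
  have hc := fun (A C : SpecialLinearGroup (Fin 5) k) => (ph_comm k A C).eq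
  have e1 : ph1 k (SpecialLinearGroup.map f Fr) * ph1 k B = ph1 k B * ph1 k (Yd (wU g hg) (wU_pow hg)) := by
    rw [← map_mul, h1, map_mul]
  have e2 : ph2 k (SpecialLinearGroup.map f Fr) * ph2 k B = ph2 k B * ph2 k (Yd (wU g hg) (wU_pow hg)) := by
    rw [← map_mul, h1, map_mul]
  have e3 : ph2 k (SpecialLinearGroup.map f Mo) * ph2 k B = ph2 k B * ph2 k X := by
    rw [← map_mul, h2, map_mul]
  have hN : (ph1 k B * ph2 k B)⁻¹ * phi chevE8 k 3 1 (ph1 k B * ph2 k B) = NN k := by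
    rw [inv_mul_eq_iff_eq_mul, map_mul, phi_ph1, phi_ph2, h3, map_mul, map_mul, NN]
    have := hc (PP k) B
    calc ph1 k B * ph1 k (PP k) * (ph2 k B * ph2 k (PP k)) = ph1 k B * (ph1 k (PP k) * ph2 k B) * ph2 k (PP k) := by group
      _ = _ := by rw [this]; group
  have hY : (ph1 k B * ph2 k B)⁻¹ * emb hE8 f (ph1 (ZMod 3) Fr * ph2 (ZMod 3) Fr) * (ph1 k B * ph2 k B) =
      YY (wU g hg) (wU_pow hg) := by
    rw [mul_assoc, inv_mul_eq_iff_eq_mul, map_mul, emb_ph1, emb_ph2, YY]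
    calc ph1 k (SpecialLinearGroup.map f Fr) * ph2 k (SpecialLinearGroup.map f Fr) * (ph1 k B * ph2 k B) =
        ph1 k (SpecialLinearGroup.map f Fr) * (ph2 k (SpecialLinearGroup.map f Fr) * ph1 k B) * ph2 k B := by group
      _ = (ph1 k (SpecialLinearGroup.map f Fr) * ph1 k B) * (ph2 k (SpecialLinearGroup.map f Fr) * ph2 k B) := by
        rw [← hc B]; group
      _ = ph1 k B * (ph1 k (Yd (wU g hg) (wU_pow hg)) * ph2 k B) * ph2 k (Yd (wU g hg) (wU_pow hg)) := by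
        rw [e1, e2]; group
      _ = _ := by rw [hc]; group
  refine ⟨ph1 k B * ph2 k B, X, hX, hN, ?_, hY, ?_, ?_, ?_⟩
  · rw [mul_assoc, inv_mul_eq_iff_eq_mul, emb_ph2]
    calc ph2 k (SpecialLinearGroup.map f Mo) * (ph1 k B * ph2 k B) =
        (ph2 k (SpecialLinearGroup.map f Mo) * ph1 k B) * ph2 k B := by group
      _ = ph1 k B * (ph2 k (SpecialLinearGroup.map f Mo) * ph2 k B) := by rw [← hc B]; group
      _ = _ := by rw [e3]; group
  · have := (ph_comm (ZMod 3) Fr Fr).eq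
    rw [← this]
    exact hY
  · intro t
    rw [map_mul, map_mul, map_inv, phi_emb3]
    have h4 : phi chevE8 k 3 1 (ph1 k B * ph2 k B) = (ph1 k B * ph2 k B) * NN k := by rw [← hN]; group
    rw [h4]
    group
  · intro l hl
    set d := dg (kd l) (kd_prod hl) with hd
    obtain ⟨D0, hD0⟩ := exists_rat f (D := B * d * B⁻¹) (by
      have h5 := PP_dg hl
      rw [← hd] at h5
      rw [map_mul, map_mul, map_inv, h3]
      calc B * PP k * SpecialLinearGroup.map (iterateFrobenius k 3 1) d * (B * PP k)⁻¹ =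
          B * (PP k * SpecialLinearGroup.map (iterateFrobenius k 3 1) d) * (PP k)⁻¹ * B⁻¹ := by group
        _ = _ := by rw [h5]; group)
    refine ⟨ph1 (ZMod 3) D0, ?_, (ph_comm (ZMod 3) D0 Mo).eq, ?_⟩
    · rw [emb_ph1, hD0, map_mul, map_mul, map_inv]
      have h6 : kel l hl = ph1 k d := rfl
      rw [h6]
      have h7 := hc d B
      calc ph1 k B * ph1 k d * (ph1 k B)⁻¹ = ph1 k B * (ph1 k d * ph2 k B) * (ph2 k B)⁻¹ * (ph1 k B)⁻¹ := by group
        _ = _ := by rw [h7]; group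
    · have h8 : D0 * Fr = Fr * D0 := by
        apply map_inj f
        rw [map_mul, map_mul, hD0]
        have h9 : SpecialLinearGroup.map f Fr = B * Yd (wU g hg) (wU_pow hg) * B⁻¹ := by
          rw [← h1]; group
        have h10 : d * Yd (wU g hg) (wU_pow hg) = Yd (wU g hg) (wU_pow hg) * d := dg_comm _ _
        rw [h9]
        calc B * d * B⁻¹ * (B * Yd (wU g hg) (wU_pow hg) * B⁻¹) = B * (d * Yd (wU g hg) (wU_pow hg)) * B⁻¹ := by group
          _ = _ := by rw [h10]; group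
      have h11 : ph1 (ZMod 3) D0 * ph1 (ZMod 3) Fr = ph1 (ZMod 3) Fr * ph1 (ZMod 3) D0 := by
        rw [← map_mul, h8, map_mul]
      have h12 := (ph_comm (ZMod 3) D0 Fr).eq
      rw [← mul_assoc, h12, mul_assoc, h11, mul_assoc]

end

end Cfsg.Agent.H908.E8L
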